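import Mathlib.GroupTheory.GroupAction.Quotient
import Mathlib.GroupTheory.SpecificGroups.Alternating
import Mathlib.GroupTheory.Index
import Mathlib.Algebra.BigOperators.Group.Finset.Piecewise
import Mathlib.Tactic.Linarith
import Mathlib.Tactic.Ring
import Mathlib.Tactic.IntervalCases
import Mathlib.Tactic.NormNum

/-!
# Abelian subgroups of large order in alternating groups

If `A` is abelian, even and `4096 * 3 ^ n ≤ 6561 * |A| ^ 3` then all orbits have size 3 or 4, at
most two have size 4, and `A` is determined by its orbit partition.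
-/

set_option autoImplicit false

open scoped Pointwise
open Equiv Equiv.Perm

namespace CfsgLib.AltAbelian

variable {α : Type*} [Fintype α] [DecidableEq α]

/-- the orbits of a permutation group -/
abbrev Orb (A : Subgroup (Perm α)) : Type _ := MulAction.orbitRel.Quotient A α

/-- the orbit of a point -/
abbrev cls (A : Subgroup (Perm α)) (x : α) : Orb A := Quotient.mk'' x

/-- the size of an orbit -/
noncomputable def size (A : Subgroup (Perm α)) (ω : Orb A) : ℕ :=
  Nat.card {x // cls A x = ω}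

omit [Fintype α] [DecidableEq α] in
theorem cls_eq_iff (A : Subgroup (Perm α)) {x y : α} :
    cls A x = cls A y ↔ ∃ a ∈ A, a y = x := by
  rw [show (cls A x = cls A y) ↔ MulAction.orbitRel A α x y from Quotient.eq'',
    MulAction.orbitRel_apply]
  constructor
  · rintro ⟨⟨a, ha⟩, h⟩; exact ⟨a, ha, h⟩
  · rintro ⟨a, ha, h⟩; exact ⟨⟨a, ha⟩, h⟩

omit [DecidableEq α] in
theorem sum_size (A : Subgroup (Perm α)) [Fintype (Orb A)] :
    ∑ ω, size A ω = Fintype.card α := by
  rw [← Nat.card_eq_fintype_card (α := α), ← Nat.card_congr (Equiv.sigmaFiberEquiv (cls A)),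
    Nat.card_sigma]
  rfl

theorem cube_le (m : ℕ) : m ^ 3 ≤ 3 ^ m := by
  rcases le_or_gt m 3 with h | h
  · interval_cases m <;> norm_num
  · induction m, h using Nat.le_induction with
    | base => norm_num
    | succ k hk ih =>
      have : (k + 1) ^ 3 ≤ 3 * k ^ 3 := by
        obtain ⟨j, rfl⟩ : ∃ j, k = j + 4 := ⟨k - 4, by omega⟩
        ring_nf; nlinarith [Nat.zero_le (j ^ 3), Nat.zero_le (j ^ 2), Nat.zero_le j]
      calc (k + 1) ^ 3 ≤ 3 * k ^ 3 := this
        _ ≤ 3 * 3 ^ k := Nat.mul_le_mul_left 3 ih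
        _ = 3 ^ (k + 1) := (pow_succ' 3 k).symm

theorem large_part {m : ℕ} (hm : 5 ≤ m) : 6561 * m ^ 3 < 4096 * 3 ^ m := by
  induction m, hm using Nat.le_induction with
  | base => norm_num
  | succ k hk ih =>
    have : (k + 1) ^ 3 ≤ 3 * k ^ 3 := by
      obtain ⟨j, rfl⟩ : ∃ j, k = j + 5 := ⟨k - 5, by omega⟩
      ring_nf; nlinarith [Nat.zero_le (j ^ 3), Nat.zero_le (j ^ 2), Nat.zero_le j]
    calc 6561 * (k + 1) ^ 3 ≤ 6561 * (3 * k ^ 3) := Nat.mul_le_mul_left _ this
      _ < 4096 * 3 ^ (k + 1) := by rw [pow_succ' 3 k]; linarith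

/-- the structure forced by a large abelian subgroup -/
structure Big (A : Subgroup (Perm α)) : Prop where
  size34 : ∀ ω : Orb A, size A ω = 3 ∨ size A ω = 4
  glue : ∀ f : Orb A → A, ∃ a ∈ A, ∀ x, a x = (f (cls A x) : Perm α) x
  fours : Nat.card {ω : Orb A // size A ω = 4} ≤ 2
  count : 4 * Nat.card {ω : Orb A // size A ω = 4} + 3 * Nat.card {ω : Orb A // size A ω = 3} =
    Fintype.card α
  free : ∀ a ∈ A, ∀ x y, cls A x = cls A y → a x = x → a y = y
  inv : ∀ a ∈ A, ∀ x, size A (cls A x) = 4 → a (a x) = x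

omit [Fintype α] [DecidableEq α] in
theorem free_of_comm {A : Subgroup (Perm α)} (hcomm : ∀ a ∈ A, ∀ b ∈ A, a * b = b * a) :
    ∀ a ∈ A, ∀ x y, cls A x = cls A y → a x = x → a y = y := by
  intro a ha x y hxy hx
  obtain ⟨g, hg, rfl⟩ := (cls_eq_iff A).mp hxy.symm
  rw [← Perm.mul_apply, hcomm a ha g hg, Perm.mul_apply, hx]

omit [DecidableEq α] in
theorem apply_cls {A : Subgroup (Perm α)} {a : Perm α} (ha : a ∈ A) (x : α) :
    cls A (a x) = cls A x := (cls_eq_iff A).mpr ⟨a, ha, rfl⟩

theorem big_of_card {A : Subgroup (Perm α)} (hcomm : ∀ a ∈ A, ∀ b ∈ A, a * b = b * a)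
    (heven : A ≤ alternatingGroup α)
    (hbig : 4096 * 3 ^ Fintype.card α ≤ 6561 * Nat.card A ^ 3) : Big A := by
  classical
  haveI : Fintype (Orb A) := Fintype.ofFinite _
  have hfree := free_of_comm hcomm
  let rep : Orb A → α := fun ω => Quotient.out ω
  have hrep : ∀ ω, cls A (rep ω) = ω := fun ω => Quotient.out_eq' ω
  let K : Orb A → Subgroup A := fun ω => MulAction.stabilizer A (rep ω)
  haveI hK : ∀ ω, (K ω).Normal := fun ω => ⟨fun k hk g => by
    have : g * k * g⁻¹ = k := by
      apply Subtype.ext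
      simp only [Subgroup.coe_mul, InvMemClass.coe_inv]
      rw [hcomm _ g.2 _ k.2, mul_inv_cancel_right]
    rwa [this]⟩
  let Φ : A →* ∀ ω, A ⧸ K ω := Pi.monoidHom fun ω => QuotientGroup.mk' (K ω)
  have hinj : Function.Injective Φ := by
    rw [injective_iff_map_eq_one]
    intro a ha
    apply Subtype.ext
    ext x
    have h1 : (QuotientGroup.mk' (K (cls A x))) a = 1 := congrFun ha (cls A x)
    have h2 : a ∈ K (cls A x) := (QuotientGroup.eq_one_iff a).mp h1
    exact hfree a a.2 _ x (hrep _) h2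
  have hidx : ∀ ω, Nat.card (A ⧸ K ω) = size A ω := fun ω => by
    show (K ω).index = _
    rw [MulAction.index_stabilizer, ← Nat.card_coe_set_eq]
    refine Nat.card_congr (Equiv.subtypeEquivRight fun x => ?_)
    show x ∈ MulAction.orbit A (rep ω) ↔ cls A x = ω
    rw [← MulAction.orbitRel_apply]
    exact ⟨fun h => (Quotient.sound' h).trans (hrep ω),
      fun h => Quotient.eq''.mp (h.trans (hrep ω).symm)⟩
  set P := ∏ ω, size A ω with hP
  have hcardP : Nat.card (∀ ω, A ⧸ K ω) = P := by
    rw [Nat.card_pi]; exact Finset.prod_congr rfl fun ω _ => hidx ω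
  have hdvd : Nat.card A ∣ P := hcardP ▸ Subgroup.card_dvd_of_injective Φ hinj
  have hPcube : P ^ 3 ≤ 3 ^ Fintype.card α := by
    rw [← sum_size A, hP, ← Finset.prod_pow, ← Finset.prod_pow_eq_pow_sum]
    exact Finset.prod_le_prod' fun ω _ => cube_le _
  have hsz : ∀ ω, 0 < size A ω := fun ω => by
    haveI : Nonempty {x // cls A x = ω} := ⟨⟨_, hrep ω⟩⟩
    exact Nat.card_pos
  have hPpos : 0 < P := Finset.prod_pos fun ω _ => hsz ω
  have heq : Nat.card A = P := by
    obtain ⟨k, hk⟩ := hdvd
    rcases Nat.lt_or_ge k 2 with h | h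
    · interval_cases k
      · rw [hk] at hPpos; simp at hPpos
      · rw [hk, mul_one]
    · exfalso
      have h1 : (2 * Nat.card A) ^ 3 ≤ 3 ^ Fintype.card α := by
        refine le_trans (Nat.pow_le_pow_left ?_ 3) hPcube
        rw [hk, mul_comm 2]; exact Nat.mul_le_mul_left _ h
      have h3 : 0 < 3 ^ Fintype.card α := pow_pos (by norm_num) _
      rw [mul_pow] at h1
      omega
  have hbij : Function.Bijective Φ :=
    (Nat.bijective_iff_injective_and_card Φ).mpr ⟨hinj, by rw [hcardP, heq]⟩
  have glue : ∀ f : Orb A → A, ∃ a ∈ A, ∀ x, a x = (f (cls A x) : Perm α) x := by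
    intro f
    obtain ⟨a, ha⟩ := hbij.2 fun ω => QuotientGroup.mk' (K ω) (f ω)
    refine ⟨a, a.2, fun x => ?_⟩
    have h1 := congrFun ha (cls A x)
    have h2 : ((f (cls A x))⁻¹ * a : A) ∈ K (cls A x) :=
      QuotientGroup.eq.mp (h1.symm)
    have h3 := hfree _ ((f (cls A x))⁻¹ * a).2 _ x (hrep _) h2
    simp only [Subgroup.coe_mul, InvMemClass.coe_inv, Perm.mul_apply] at h3
    exact (Perm.inv_eq_iff_eq.mp h3)
  -- each orbit carries its own even regular group
  have hlocal : ∀ a ∈ A, ∀ x, ∃ r ∈ A, (∀ y, cls A y = cls A x → r y = a y) ∧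
      ∀ y, cls A y ≠ cls A x → r y = y := by
    intro a ha x
    obtain ⟨r, hr, h⟩ := glue fun ω => if ω = cls A x then ⟨a, ha⟩ else 1
    exact ⟨r, hr, fun y hy => by rw [h y, if_pos hy], fun y hy => by rw [h y, if_neg hy]; rfl⟩
  have hsupp : ∀ a ∈ A, ∀ x, a x ≠ x → ∃ r ∈ A, r x = a x ∧
      (∀ y, cls A y = cls A x → r y = a y) ∧
      r.support = Finset.univ.filter fun y => cls A y = cls A x := by
    intro a ha x hax
    obtain ⟨r, hr, h1, h2⟩ := hlocal a ha x
    refine ⟨r, hr, h1 x rfl, h1, ?_⟩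
    ext y
    simp only [mem_support, Finset.mem_filter, Finset.mem_univ, true_and]
    refine ⟨fun h => by by_contra hne; exact h (h2 y hne), fun hy => ?_⟩
    rw [h1 y hy]
    exact fun h => hax (hfree a ha y x hy h)
  have hfiber : ∀ x, (Finset.univ.filter fun y => cls A y = cls A x).card = size A (cls A x) := by
    intro x
    rw [size, Nat.card_eq_fintype_card, Fintype.card_subtype]
  have hne2 : ∀ ω, size A ω ≠ 2 := by
    intro ω h2
    obtain ⟨u, hu, hne⟩ : ∃ u, cls A u = ω ∧ u ≠ rep ω := by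
      by_contra hh; push Not at hh
      have : size A ω = 1 := by
        rw [size, Nat.card_eq_one_iff_unique]
        exact ⟨⟨fun p q => Subtype.ext ((hh p p.2).trans (hh q q.2).symm)⟩, ⟨⟨_, hrep ω⟩⟩⟩
      omega
    obtain ⟨a, ha, hau⟩ := (cls_eq_iff A).mp (hu.trans (hrep ω).symm)
    obtain ⟨r, hr, -, -, hs⟩ := hsupp a ha (rep ω) (by rw [hau]; exact hne)
    obtain ⟨p, q, hpq, rfl⟩ := card_support_eq_two.mp (by
      rw [hs, hfiber, hrep, h2] : r.support.card = 2)
    have := heven hr
    rw [mem_alternatingGroup, sign_swap hpq] at this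
    exact absurd this (by decide)
  have hmember : ∀ ω₀, P ^ 3 * 3 ^ size A ω₀ ≤ size A ω₀ ^ 3 * 3 ^ Fintype.card α := by
    intro ω₀
    rw [hP, ← sum_size A, ← Finset.mul_prod_erase _ _ (Finset.mem_univ ω₀),
      ← Finset.add_sum_erase _ _ (Finset.mem_univ ω₀), mul_pow, pow_add]
    have hrest : (∏ ω ∈ Finset.univ.erase ω₀, size A ω) ^ 3 ≤
        3 ^ ∑ ω ∈ Finset.univ.erase ω₀, size A ω := by
      rw [← Finset.prod_pow, ← Finset.prod_pow_eq_pow_sum]
      exact Finset.prod_le_prod' fun ω _ => cube_le _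
    calc _ = size A ω₀ ^ 3 * 3 ^ size A ω₀ * (∏ ω ∈ Finset.univ.erase ω₀, size A ω) ^ 3 := by ring
      _ ≤ size A ω₀ ^ 3 * 3 ^ size A ω₀ * 3 ^ ∑ ω ∈ Finset.univ.erase ω₀, size A ω :=
          Nat.mul_le_mul_left _ hrest
      _ = _ := by ring
  rw [heq] at hbig
  have h3n : 0 < 3 ^ Fintype.card α := pow_pos (by norm_num) _
  have size34 : ∀ ω, size A ω = 3 ∨ size A ω = 4 := by
    intro ω
    have h1 : 4096 * 3 ^ size A ω ≤ 6561 * size A ω ^ 3 := by
      have h := hmember ω
      have : 4096 * 3 ^ size A ω * 3 ^ Fintype.card α ≤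
          6561 * size A ω ^ 3 * 3 ^ Fintype.card α := by
        calc _ = 4096 * 3 ^ Fintype.card α * 3 ^ size A ω := by ring
          _ ≤ 6561 * P ^ 3 * 3 ^ size A ω := Nat.mul_le_mul_right _ hbig
          _ = 6561 * (P ^ 3 * 3 ^ size A ω) := by ring
          _ ≤ 6561 * (size A ω ^ 3 * 3 ^ Fintype.card α) := Nat.mul_le_mul_left _ h
          _ = _ := by ring
      exact Nat.le_of_mul_le_mul_right this h3n
    rcases Nat.lt_or_ge (size A ω) 5 with h5 | h5
    · have := hsz ω
      have := hne2 ω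
      rcases (show size A ω = 1 ∨ size A ω = 3 ∨ size A ω = 4 by omega) with e | e | e
      · rw [e] at h1; norm_num at h1
      · exact Or.inl e
      · exact Or.inr e
    · exact absurd h1 (not_le.mpr (large_part h5))
  set j := Nat.card {ω : Orb A // size A ω = 4} with hj
  set l := Nat.card {ω : Orb A // size A ω = 3} with hl
  have hsplit : ∀ (F : ℕ → ℕ), ∏ ω, F (size A ω) = F 4 ^ j * F 3 ^ l := by
    intro F
    rw [hj, hl, Nat.card_eq_fintype_card, Nat.card_eq_fintype_card, Fintype.card_subtype,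
      Fintype.card_subtype, ← Finset.prod_const, ← Finset.prod_const,
      ← Finset.prod_filter_mul_prod_filter_not Finset.univ (fun ω => size A ω = 4)]
    congr 1
    · exact Finset.prod_congr rfl fun ω h => by rw [(Finset.mem_filter.mp h).2]
    · refine Finset.prod_congr ?_ fun ω h => ?_
      · ext ω
        simp only [Finset.mem_filter, Finset.mem_univ, true_and]
        constructor
        · intro h; exact (size34 ω).resolve_right h
        · intro h; omega
      · rw [(Finset.mem_filter.mp h).2]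
  have hP34 : P = 4 ^ j * 3 ^ l := hsplit id
  have hn : 4 * j + 3 * l = Fintype.card α := by
    have h := hsplit (fun m => 2 ^ m)
    rw [Finset.prod_pow_eq_pow_sum, sum_size, ← pow_mul, ← pow_mul, ← pow_add] at h
    exact (Nat.pow_right_injective (le_refl 2) h).symm
  have hj2 : j ≤ 2 := by
    by_contra hgt
    obtain ⟨i, hi⟩ : ∃ i, j = i + 3 := ⟨j - 3, by omega⟩
    rw [hP34, ← hn] at hbig
    have h1 : 4096 * 81 ^ j * 27 ^ l ≤ 6561 * 64 ^ j * 27 ^ l := by
      calc 4096 * 81 ^ j * 27 ^ l = 4096 * 3 ^ (4 * j + 3 * l) := by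
            rw [pow_add, pow_mul, pow_mul]; ring
        _ ≤ 6561 * (4 ^ j * 3 ^ l) ^ 3 := hbig
        _ = 6561 * 64 ^ j * 27 ^ l := by
            rw [mul_pow, ← pow_mul, ← pow_mul, mul_comm j, mul_comm l, pow_mul, pow_mul]; ring
    have h2 := Nat.le_of_mul_le_mul_right h1 (pow_pos (by norm_num) l)
    rw [hi, pow_add, pow_add] at h2
    have h3 : 64 ^ i ≤ 81 ^ i := Nat.pow_le_pow_left (by norm_num) i
    have h4 : 0 < 64 ^ i := pow_pos (by norm_num) i
    norm_num at h2
    nlinarith
  refine ⟨size34, glue, hj2, hn, hfree, fun a ha x h4 => ?_⟩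
  by_cases hax : a x = x
  · rw [hax, hax]
  obtain ⟨r, hr, hrx, hry, hs⟩ := hsupp a ha x hax
  have hcx : cls A (a x) = cls A x := apply_cls ha x
  rw [← hry (a x) hcx, ← hrx]
  by_contra hne
  set y := r x with hy
  have hcard : r.support.card = 4 := by rw [hs, hfiber, h4]
  have hxs : x ∈ r.support := by
    rw [mem_support, ← hy, hrx]; exact hax
  have hys : y ∈ r.support := apply_mem_support.mpr hxs
  have hxy : x ≠ y := fun h => mem_support.mp hxs (hy ▸ h.symm)
  set z := r y with hz
  have hzs : z ∈ r.support := apply_mem_support.mpr hys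
  have hzy : z ≠ y := mem_support.mp hys
  set w := r z with hw
  have hws : w ∈ r.support := apply_mem_support.mpr hzs
  have hwz : w ≠ z := mem_support.mp hzs
  have hwy : w ≠ y := fun h => hne (r.injective (hw ▸ h.trans hy : r z = r x))
  have hwx : w ≠ x := by
    intro h
    have h3 : (({x, y, z} : Finset α)).card = 3 :=
      Finset.card_eq_three.mpr ⟨x, y, z, hxy, fun e => hne e.symm, hzy.symm, rfl⟩
    obtain ⟨v, hv, hv'⟩ : ∃ v ∈ r.support, v ∉ ({x, y, z} : Finset α) := by
      by_contra hh; push Not at hh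
      have := Finset.card_le_card hh; omega
    simp only [Finset.mem_insert, Finset.mem_singleton, not_or] at hv'
    have hrv := apply_mem_support.mpr hv
    have hvne := mem_support.mp hv
    have hsub : ({x, y, z, v} : Finset α) ⊆ r.support := by
      intro u hu
      simp only [Finset.mem_insert, Finset.mem_singleton] at hu
      rcases hu with rfl | rfl | rfl | rfl <;> assumption
    have h44 : ({x, y, z, v} : Finset α).card = 4 :=
      Finset.card_eq_four.mpr ⟨x, y, z, v, hxy, fun e => hne e.symm, fun e => hv'.1 e.symm,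
        hzy.symm, fun e => hv'.2.1 e.symm, fun e => hv'.2.2 e.symm, rfl⟩
    have heq4 := Finset.eq_of_subset_of_card_le hsub (by omega)
    rw [← heq4] at hrv
    simp only [Finset.mem_insert, Finset.mem_singleton] at hrv
    rcases hrv with e | e | e | e
    · exact hv'.2.2 (r.injective (e.trans (h.symm.trans hw)))
    · exact hv'.1 (r.injective (e.trans hy))
    · exact hv'.2.1 (r.injective (e.trans hz))
    · exact hvne e
  have hsub : ({x, y, z, w} : Finset α) ⊆ r.support := by
    intro u hu
    simp only [Finset.mem_insert, Finset.mem_singleton] at hu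
    rcases hu with rfl | rfl | rfl | rfl <;> assumption
  have h44 : ({x, y, z, w} : Finset α).card = 4 :=
    Finset.card_eq_four.mpr ⟨x, y, z, w, hxy, fun e => hne e.symm, hwx.symm,
      hzy.symm, hwy.symm, hwz.symm, rfl⟩
  have heq4 := Finset.eq_of_subset_of_card_le hsub (by omega)
  have hrw : r w = x := by
    have h := apply_mem_support.mpr hws
    rw [← heq4] at h
    simp only [Finset.mem_insert, Finset.mem_singleton] at h
    rcases h with e | e | e | e
    · exact e
    · exact absurd (r.injective (e.trans hy)) hwx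
    · exact absurd (r.injective (e.trans hz)) hwy
    · exact absurd e (mem_support.mp hws)
  have hr4 : r = swap x y * swap y z * swap z w := by
    ext u
    simp only [Perm.mul_apply]
    by_cases h1 : u = x
    · subst h1
      rw [swap_apply_of_ne_of_ne (fun e => hne e.symm) hwx.symm,
        swap_apply_of_ne_of_ne hxy (fun e => hne e.symm), swap_apply_left]
    by_cases h2 : u = y
    · subst h2
      rw [swap_apply_of_ne_of_ne hzy.symm hwy.symm, swap_apply_left,
        swap_apply_of_ne_of_ne (fun e => hne e) hzy]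
    by_cases h3 : u = z
    · subst h3
      rw [swap_apply_left, swap_apply_of_ne_of_ne hwy hwz, swap_apply_of_ne_of_ne hwx hwy]
    by_cases h4' : u = w
    · subst h4'
      rw [swap_apply_right, swap_apply_right, swap_apply_right, hrw]
    have hu : u ∉ r.support := by
      rw [← heq4]; simp [h1, h2, h3, h4']
    rw [swap_apply_of_ne_of_ne h3 h4', swap_apply_of_ne_of_ne h2 h3,
      swap_apply_of_ne_of_ne h1 h2]
    exact notMem_support.mp hu
  have := heven hr
  rw [hr4, mem_alternatingGroup, map_mul, map_mul, sign_swap hxy, sign_swap hzy.symm,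
    sign_swap hwz.symm] at this
  exact absurd this (by decide)

end CfsgLib.AltAbelian
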