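import Cfsg.Agent.AltAbelian.Basic
import Mathlib.Logic.Equiv.Fin.Basic
import Mathlib.GroupTheory.Sylow

/-!
# Conjugacy of the big abelian subgroups, and witnesses for the bound
-/

set_option autoImplicit false

open scoped Pointwise
open Equiv Equiv.Perm

namespace CfsgLib.AltAbelian

variable {α : Type*} [Fintype α] [DecidableEq α]

omit [DecidableEq α] in
theorem size_le_four {A : Subgroup (Perm α)} (h : Big A) (x : α) (F : Finset α)
    (hF : ∀ u ∈ F, cls A u = cls A x) : F.card ≤ size A (cls A x) := by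
  classical
  rw [size, Nat.card_eq_fintype_card, Fintype.card_subtype]
  exact Finset.card_le_card fun u hu => Finset.mem_filter.mpr ⟨Finset.mem_univ u, hF u hu⟩

/-- two orbit-preserving maps without partial fixed points agree if they agree at one point -/
theorem eq_on_orbit {A : Subgroup (Perm α)} (h : Big A) {f g : Perm α} (x : α)
    (hf : ∀ u, cls A u = cls A x → cls A (f u) = cls A x)
    (hg : ∀ u, cls A u = cls A x → cls A (g u) = cls A x)
    (ff : ∀ u v, cls A u = cls A x → cls A v = cls A x → f u = u → f v = v)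
    (gf : ∀ u v, cls A u = cls A x → cls A v = cls A x → g u = u → g v = v)
    (fi : size A (cls A x) = 4 → ∀ u, cls A u = cls A x → f (f u) = u)
    (gi : size A (cls A x) = 4 → ∀ u, cls A u = cls A x → g (g u) = u)
    (hx : f x = g x) : ∀ u, cls A u = cls A x → f u = g u := by
  classical
  intro u hu
  by_cases h0 : f x = x
  · rw [ff x u rfl hu h0, gf x u rfl hu (hx ▸ h0)]
  have h0g : g x ≠ x := hx ▸ h0
  set y := f x with hy
  have hyO : cls A y = cls A x := hf x rfl
  have hfne : ∀ v, cls A v = cls A x → f v ≠ v := fun v hv e => h0 (ff v x hv rfl e)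
  have hgne : ∀ v, cls A v = cls A x → g v ≠ v := fun v hv e => h0g (gf v x hv rfl e)
  by_contra hne
  have hux : u ≠ x := fun e => hne (e ▸ hx)
  rcases h.size34 (cls A x) with h3 | h4
  · -- three points: the image of a second point is forced
    have key : ∀ k : Perm α, (∀ v, cls A v = cls A x → cls A (k v) = cls A x) →
        (∀ v, cls A v = cls A x → k v ≠ v) → k x = y → ∀ v, cls A v = cls A x → v ≠ x → v ≠ y →
        k y = v ∧ k v = x := by
      intro k hk hkne hkx v hv hvx hvy
      have hall : ∀ w, cls A w = cls A x → w = x ∨ w = y ∨ w = v := by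
        intro w hw
        by_contra hh; push Not at hh
        have := size_le_four h x {x, y, v, w} (by
          intro z hz
          simp only [Finset.mem_insert, Finset.mem_singleton] at hz
          rcases hz with rfl | rfl | rfl | rfl <;> first | rfl | assumption)
        rw [Finset.card_eq_four.mpr ⟨x, y, v, w, Ne.symm h0, Ne.symm hvx, Ne.symm hh.1,
          Ne.symm hvy, Ne.symm hh.2.1, Ne.symm hh.2.2, rfl⟩] at this
        omega
      have h1 : k v = x := by
        rcases hall _ (hk v hv) with e | e | e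
        · exact e
        · exact absurd (k.injective (e.trans hkx.symm)) hvx
        · exact absurd e (hkne v hv)
      refine ⟨?_, h1⟩
      rcases hall _ (hk y hyO) with e | e | e
      · exact absurd (k.injective (e.trans h1.symm)) (Ne.symm hvy)
      · exact absurd e (hkne y hyO)
      · exact e
    by_cases huy : u = y
    · subst huy
      obtain ⟨v, hv, hvx, hvy⟩ : ∃ v, cls A v = cls A x ∧ v ≠ x ∧ v ≠ y := by
        refine ⟨f y, hf y hyO, fun e => ?_, hfne y hyO⟩
        by_contra
        obtain ⟨v, hv, hvx, hvy⟩ : ∃ v, cls A v = cls A x ∧ v ≠ x ∧ v ≠ y := by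
          by_contra hh; push Not at hh
          have hle : size A (cls A x) ≤ 2 := by
            rw [size, Nat.card_eq_fintype_card, Fintype.card_subtype]
            refine le_trans (Finset.card_le_card (t := {x, y}) ?_) Finset.card_le_two
            intro z hz
            by_cases hzx : z = x
            · simp [hzx]
            · simp [hh z (Finset.mem_filter.mp hz).2 hzx]
          omega
        exact hvx ((key f hf hfne hy.symm v hv hvx hvy).1.symm.trans e)
      exact hne ((key f hf hfne hy.symm v hv hvx hvy).1.trans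
        (key g hg hgne hx.symm v hv hvx hvy).1.symm)
    · exact hne ((key f hf hfne hy.symm u hu hux huy).2.trans
        (key g hg hgne hx.symm u hu hux huy).2.symm)
  · -- four points: both are double transpositions
    have hfy : f y = x := fi h4 x rfl
    have hgy : g y = x := by rw [show y = g x from hx]; exact gi h4 x rfl
    by_cases huy : u = y
    · exact hne (by rw [huy, hfy, hgy])
    have hfu : f u ≠ x ∧ f u ≠ y :=
      ⟨fun e => huy (f.injective (e.trans hfy.symm)), fun e => hux (f.injective (e.trans hy))⟩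
    have hgu : g u ≠ x ∧ g u ≠ y :=
      ⟨fun e => huy (g.injective (e.trans hgy.symm)), fun e => hux (g.injective (e.trans hx))⟩
    have := size_le_four h x {x, y, u, f u, g u} (by
      intro z hz
      simp only [Finset.mem_insert, Finset.mem_singleton] at hz
      rcases hz with rfl | rfl | rfl | rfl | rfl <;> first | rfl | assumption | exact hf u hu | exact hg u hu)
    have h5 : ({x, y, u, f u, g u} : Finset α).card = 5 := by
      have a1 := hfne u hu
      have a2 := hgne u hu
      rw [Finset.card_insert_of_notMem, Finset.card_insert_of_notMem, Finset.card_insert_of_notMem,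
        Finset.card_pair hne]
      · simp [Ne.symm a1, Ne.symm a2]
      · simp [Ne.symm huy, Ne.symm hfu.2, Ne.symm hgu.2]
      · simp [Ne.symm h0, Ne.symm hux, Ne.symm hfu.1, Ne.symm hgu.1]
    omega

omit [DecidableEq α] in
theorem size_transport {A B : Subgroup (Perm α)} (σ : Perm α)
    (hσ : ∀ x y, cls A x = cls A y ↔ cls B (σ x) = cls B (σ y)) (x : α) :
    size A (cls A x) = size B (cls B (σ x)) :=
  Nat.card_congr (σ.subtypeEquiv fun y => hσ y x)

/-- an orbit-respecting permutation conjugates one big subgroup to the other -/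
theorem conj_mem {A B : Subgroup (Perm α)} (hA : Big A) (hB : Big B) (σ : Perm α)
    (hσ : ∀ x y, cls A x = cls A y ↔ cls B (σ x) = cls B (σ y)) :
    ∀ a ∈ A, σ * a * σ⁻¹ ∈ B := by
  classical
  intro a ha
  set k := σ * a * σ⁻¹ with hk
  have happ : ∀ u, k (σ u) = σ (a u) := fun u => by simp [hk]
  have hkcls : ∀ u, cls B (k u) = cls B u := by
    intro u
    obtain ⟨v, rfl⟩ := σ.surjective u
    rw [happ]
    exact (hσ _ _).mp (apply_cls ha v)
  let rep : Orb B → α := fun ω => Quotient.out ω
  have hrep : ∀ ω, cls B (rep ω) = ω := fun ω => Quotient.out_eq' ω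
  have hex : ∀ ω : Orb B, ∃ b : B, (b : Perm α) (rep ω) = k (rep ω) := fun ω => by
    obtain ⟨b, hb, e⟩ := (cls_eq_iff B).mp (hkcls (rep ω))
    exact ⟨⟨b, hb⟩, e⟩
  choose f hf using hex
  obtain ⟨b, hb, hbx⟩ := hB.glue f
  suffices k = b from this ▸ hb
  ext u
  rw [hbx]
  set ω := cls B u with hω
  refine eq_on_orbit hB (rep ω) ?_ ?_ ?_ ?_ ?_ ?_ (hf ω).symm u (hω.symm.trans (hrep ω).symm)
  · exact fun v hv => (hkcls v).trans hv
  · exact fun v hv => (apply_cls (f ω).2 v).trans hv
  · intro v w hv hw hfix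
    obtain ⟨v', rfl⟩ := σ.surjective v
    obtain ⟨w', rfl⟩ := σ.surjective w
    rw [happ] at hfix ⊢
    rw [hA.free a ha v' w' ((hσ _ _).mpr (hv.trans hw.symm)) (σ.injective hfix)]
  · exact fun v w hv hw => hB.free _ (f ω).2 v w (hv.trans hw.symm)
  · intro h4 v hv
    obtain ⟨v', rfl⟩ := σ.surjective v
    rw [happ, happ, hA.inv a ha v' (by rw [size_transport σ hσ, hv]; exact h4)]
  · intro h4 v hv
    exact hB.inv _ (f ω).2 v (by rw [hv]; exact h4)

/-- conjugacy in the alternating group -/
theorem exists_even_conj {A B : Subgroup (Perm α)} (hA : Big A) (hB : Big B)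
    (hcard : Nat.card A = Nat.card B) (hα : 0 < Fintype.card α) :
    ∃ σ : Perm α, sign σ = 1 ∧ A.map (MulAut.conj σ).toMonoidHom = B := by
  classical
  haveI : Fintype (Orb A) := Fintype.ofFinite _
  haveI : Fintype (Orb B) := Fintype.ofFinite _
  have hj : Nat.card {ω : Orb A // size A ω = 4} = Nat.card {ω : Orb B // size B ω = 4} := by
    have := hA.count
    have := hB.count
    have := hA.fours
    have := hB.fours
    omega
  have hl : Nat.card {ω : Orb A // size A ω = 3} = Nat.card {ω : Orb B // size B ω = 3} := by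
    have := hA.count
    have := hB.count
    omega
  have hfib : ∀ c : ℕ, Nat.card {ω : Orb A // size A ω = c} =
      Nat.card {ω : Orb B // size B ω = c} := by
    intro c
    by_cases h3 : c = 3
    · rw [h3, hl]
    by_cases h4 : c = 4
    · rw [h4, hj]
    haveI : IsEmpty {ω : Orb A // size A ω = c} := ⟨fun ω => by
      rcases hA.size34 ω.1 with e | e <;> omega⟩
    haveI : IsEmpty {ω : Orb B // size B ω = c} := ⟨fun ω => by
      rcases hB.size34 ω.1 with e | e <;> omega⟩
    simp
  let fe : ∀ c : ℕ, {ω : Orb A // size A ω = c} ≃ {ω : Orb B // size B ω = c} := fun c =>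
    (Finite.card_eq.mp (hfib c)).some
  let e : Orb A ≃ Orb B := Equiv.ofFiberEquiv fe
  have he : ∀ ω, size B (e ω) = size A ω := Equiv.ofFiberEquiv_map fe
  let pe : ∀ ω : Orb A, {x // cls A x = ω} ≃ {x // cls B x = e ω} := fun ω =>
    (Finite.card_eq.mp (he ω).symm).some
  let σ₀ : Perm α := (Equiv.sigmaFiberEquiv (cls A)).symm.trans
    ((Equiv.sigmaCongr e pe).trans (Equiv.sigmaFiberEquiv (cls B)))
  have hσ₀ : ∀ x, cls B (σ₀ x) = e (cls A x) := by
    intro x
    exact (pe (cls A x) ⟨x, rfl⟩).2
  have hp : ∀ x y, cls A x = cls A y ↔ cls B (σ₀ x) = cls B (σ₀ y) := fun x y => by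
    rw [hσ₀, hσ₀, e.injective.eq_iff]
  suffices ∃ σ : Perm α, sign σ = 1 ∧ ∀ x y, cls A x = cls A y ↔ cls B (σ x) = cls B (σ y) by
    obtain ⟨σ, hs, hσ⟩ := this
    refine ⟨σ, hs, Subgroup.eq_of_le_of_card_ge ?_ ?_⟩
    · rintro _ ⟨a, ha, rfl⟩
      exact conj_mem hA hB σ hσ a ha
    · rw [← hcard, Subgroup.card_map_of_injective (MulAut.conj σ).injective]
  rcases Int.units_eq_one_or (sign σ₀) with h | h
  · exact ⟨σ₀, h, hp⟩
  obtain ⟨u⟩ : Nonempty α := Fintype.card_pos_iff.mp hα
  obtain ⟨v, hvu, hne⟩ : ∃ v, cls A v = cls A u ∧ v ≠ u := by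
    by_contra hh; push Not at hh
    have : size A (cls A u) ≤ 1 := by
      rw [size, Nat.card_eq_fintype_card, Fintype.card_le_one_iff_subsingleton]
      exact ⟨fun p q => Subtype.ext ((hh p p.2).trans (hh q q.2).symm)⟩
    rcases hA.size34 (cls A u) with e | e <;> omega
  have hsw : ∀ x, cls A (swap u v x) = cls A x := by
    intro x
    rw [swap_apply_def]
    split_ifs with h1 h2
    · rw [h1, hvu]
    · rw [h2, hvu]
    · rfl
  refine ⟨σ₀ * swap u v, by rw [map_mul, h, sign_swap (Ne.symm hne)]; rfl, fun x y => ?_⟩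
  rw [Perm.mul_apply, Perm.mul_apply, ← hp, hsw, hsw]

/-- an abelian even subgroup of order `m` in degree `n` -/
def Good (n m : ℕ) : Prop :=
  ∃ C : Subgroup (Perm (Fin n)), (∀ a ∈ C, ∀ b ∈ C, a * b = b * a) ∧
    C ≤ alternatingGroup (Fin n) ∧ Nat.card C = m

theorem good_regular (n : ℕ) (G : Type) [CommGroup G] [Fintype G] (e : G ≃ Fin n)
    (hsign : ∀ g : G, sign (e.permCongr (MulAction.toPerm g)) = 1) : Good n (Fintype.card G) := by
  let φ : G →* Perm (Fin n) :=
    e.permCongrHom.toMonoidHom.comp (MulAction.toPermHom G G)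
  have hφ : Function.Injective φ := e.permCongrHom.injective.comp MulAction.toPerm_injective
  refine ⟨φ.range, ?_, ?_, ?_⟩
  · rintro _ ⟨a, rfl⟩ _ ⟨b, rfl⟩
    rw [← map_mul, ← map_mul, mul_comm]
  · rintro _ ⟨a, rfl⟩
    exact hsign a
  · rw [← Nat.card_eq_fintype_card]
    exact (Nat.card_congr (MonoidHom.ofInjective hφ).toEquiv).symm

theorem good_add {a b m k : ℕ} (h1 : Good a m) (h2 : Good b k) : Good (a + b) (m * k) := by
  obtain ⟨C, hC, hCe, hCm⟩ := h1
  obtain ⟨D, hD, hDe, hDk⟩ := h2
  let φ : Perm (Fin a) × Perm (Fin b) →* Perm (Fin (a + b)) :=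
    finSumFinEquiv.permCongrHom.toMonoidHom.comp (sumCongrHom (Fin a) (Fin b))
  have hφ : Function.Injective φ := finSumFinEquiv.permCongrHom.injective.comp
    sumCongrHom_injective
  refine ⟨(C.prod D).map φ, ?_, ?_, ?_⟩
  · rintro _ ⟨⟨x, y⟩, ⟨hx, hy⟩, rfl⟩ _ ⟨⟨x', y'⟩, ⟨hx', hy'⟩, rfl⟩
    rw [← map_mul, ← map_mul, Prod.mk_mul_mk, Prod.mk_mul_mk, hC x hx x' hx', hD y hy y' hy']
  · rintro _ ⟨⟨x, y⟩, ⟨hx, hy⟩, rfl⟩
    have h1 : sign x = 1 := hCe hx
    have h2 : sign y = 1 := hDe hy
    show sign (finSumFinEquiv.permCongr (Equiv.sumCongr x y)) = 1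
    rw [sign_permCongr, sign_sumCongr, h1, h2, one_mul]
  · rw [Subgroup.card_map_of_injective hφ, Nat.card_congr (Subgroup.prodEquiv C D).toEquiv,
      Nat.card_prod, hCm, hDk]

theorem good_three : Good 3 3 := by
  have := good_regular 3 (Multiplicative (ZMod 3)) (Multiplicative.toAdd) (by decide)
  simpa using this

theorem good_four : Good 4 4 := by
  have := good_regular 4 (Multiplicative (ZMod 2) × Multiplicative (ZMod 2))
    ((Equiv.prodCongr Multiplicative.toAdd Multiplicative.toAdd).trans finProdFinEquiv) (by decide)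
  simpa using this

theorem good_five : Good 5 5 := by
  have := good_regular 5 (Multiplicative (ZMod 5)) (Multiplicative.toAdd) (by decide)
  simpa using this

theorem good_bound {n : ℕ} (h3 : 3 ≤ n) (h5 : n ≠ 5) :
    ∃ m, Good n m ∧ 4096 * 3 ^ n ≤ 6561 * m ^ 3 := by
  have h0 : ∀ k : ℕ, Good (3 * (k + 1)) (3 ^ (k + 1)) := by
    intro k
    induction k with
    | zero => exact good_three
    | succ k ih =>
      have := good_add ih good_three
      rwa [← pow_succ, show 3 * (k + 1) + 3 = 3 * (k + 1 + 1) by omega] at this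
  have hp : ∀ k : ℕ, (3 ^ k : ℕ) ^ 3 = 3 ^ (3 * k) := fun k => by rw [← pow_mul, mul_comm]
  obtain ⟨k, hk⟩ : ∃ k, n = 3 * (k + 1) ∨ n = 3 * k + 4 ∨ n = 3 * k + 8 :=
    ⟨if n % 3 = 0 then n / 3 - 1 else if n % 3 = 1 then n / 3 - 1 else n / 3 - 2, by
      split_ifs <;> omega⟩
  rcases hk with rfl | rfl | rfl
  · exact ⟨_, h0 k, by rw [hp]; exact Nat.mul_le_mul_right _ (by norm_num)⟩
  · rcases k with _ | k
    · exact ⟨_, good_four, by norm_num⟩
    refine ⟨_, good_add (h0 k) good_four, ?_⟩
    rw [pow_add, mul_pow, hp]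
    have : 0 < 3 ^ (3 * (k + 1)) := pow_pos (by norm_num) _
    omega
  · rcases k with _ | k
    · exact ⟨16, good_add good_four good_four, by norm_num⟩
    refine ⟨_, good_add (h0 k) (good_add good_four good_four), ?_⟩
    rw [pow_add, mul_pow, hp]
    have : 0 < 3 ^ (3 * (k + 1)) := pow_pos (by norm_num) _
    omega

theorem order_five (g : Perm (Fin 5)) (h : sign g = 1) : g ^ 2 = 1 ∨ g ^ 3 = 1 ∨ g ^ 5 = 1 := by
  revert g
  decide +kernel

theorem card_five {A : Subgroup (Perm (Fin 5))} (hcomm : ∀ a ∈ A, ∀ b ∈ A, a * b = b * a)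
    (heven : A ≤ alternatingGroup (Fin 5)) (hge : 5 ≤ Nat.card A) : Nat.card A = 5 := by
  have hdvd : Nat.card A ∣ 60 := by
    have h := Subgroup.card_dvd_of_le heven
    have : 2 * Nat.card (alternatingGroup (Fin 5)) = 120 := by
      rw [Nat.card_eq_fintype_card, two_mul_card_alternatingGroup, Fintype.card_perm,
        Fintype.card_fin]
      rfl
    rwa [show Nat.card (alternatingGroup (Fin 5)) = 60 by omega] at h
  have key : ∀ p q : ℕ, p.Prime → q.Prime → p ∣ Nat.card A → q ∣ Nat.card A → p ≠ q → False := by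
    intro p q hp hq hpd hqd hne
    haveI := Fact.mk hp
    haveI := Fact.mk hq
    obtain ⟨x, hx⟩ := exists_prime_orderOf_dvd_card' p hpd
    obtain ⟨y, hy⟩ := exists_prime_orderOf_dvd_card' q hqd
    have hc : Commute x y := Subtype.ext (hcomm _ x.2 _ y.2)
    have ho : orderOf ((x * y : A) : Perm (Fin 5)) = p * q := by
      rw [Subgroup.orderOf_coe, hc.orderOf_mul_eq_mul_orderOf_of_coprime
        (by rw [hx, hy]; exact (Nat.coprime_primes hp hq).mpr hne), hx, hy]
    have h3 : ∀ r : ℕ, r.Prime → ((x * y : A) : Perm (Fin 5)) ^ r = 1 → False := fun r hr h => by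
      have hd := orderOf_dvd_of_pow_eq_one h
      rw [ho] at hd
      rcases (Nat.dvd_prime hr).mp hd with e | e
      · exact hp.ne_one (Nat.eq_one_of_mul_eq_one_right e)
      · exact Nat.not_prime_mul hp.ne_one hq.ne_one (e ▸ hr)
    rcases order_five _ (heven (x * y : A).2) with e | e | e
    · exact h3 2 Nat.prime_two e
    · exact h3 3 Nat.prime_three e
    · exact h3 5 Nat.prime_five e
  by_contra hne
  generalize Nat.card A = m at *
  have h2 := key 2 3 Nat.prime_two Nat.prime_three
  have h25 := key 2 5 Nat.prime_two Nat.prime_five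
  have h35 := key 3 5 Nat.prime_three Nat.prime_five
  have hm : m ≤ 60 := Nat.le_of_dvd (by norm_num) hdvd
  interval_cases m
  all_goals first
    | exact absurd rfl hne
    | exact absurd hdvd (by decide)
    | exact h2 (by decide) (by decide) (by decide)
    | exact h25 (by decide) (by decide) (by decide)
    | exact h35 (by decide) (by decide) (by decide)

end CfsgLib.AltAbelian
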